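import Cfsg.Agent.H999.IF.EngB
import Cfsg.Agent.H209.IF.Kill
import Cfsg.Agent.TypeM.FactsMcL
import Cfsg.Agent.TypeM.FactsAut
import Cfsg.Agent.SporRec.LyFiveCov

/-!
# S5719: the McLaughlin group, `A` of even order (helper41)

`2.A_8` has no proper subgroup of index at most 7 (`index_ge`). Hence `C_T(t) ≤ A` for all involutions `t ∈ A`, and `A = T`.
-/

set_option autoImplicit false

namespace Cfsg.Agent.H41.IFx

open Subgroup Equiv Cfsg.Agent.SporRec.TwoAn Cfsg.Agent.TypeM.Two Cfsg.Agent.H209.Fxy Cfsg.Agent.H999.IFB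

/-- `2.A_8` has no proper subgroup of index at most 7. -/
theorem index_ge {C : Type*} [Group C] [Finite C] (K : Cover (Fin 8) C) {D : Subgroup C} (hD : D ≠ ⊤) : 8 ≤ D.index := by
  classical
  by_contra hlt
  push Not at hlt
  have hcard : Nat.card C = 40320 := by
    rw [Cfsg.Agent.SporRec.LyFiveCov.card_eq K (by simp), Fintype.card_fin]
    rfl
  have hN : D.normalCore.Normal := inferInstance
  have hNne : D.normalCore ≠ ⊤ := fun h => hD (top_le_iff.1 (h ▸ D.normalCore_le))
  have hidx : D.normalCore.index ≤ 5040 := by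
    rw [D.normalCore_eq_ker, Subgroup.index_ker]
    have h1 : Nat.card (MulAction.toPermHom C (C ⧸ D)).range ≤ Nat.card (Perm (C ⧸ D)) :=
      Nat.card_le_card_of_injective _ Subtype.val_injective
    refine h1.trans ?_
    rw [Nat.card_perm]
    have h2 : Nat.card (C ⧸ D) ≤ 7 := by
      have : Nat.card (C ⧸ D) = D.index := rfl
      omega
    exact (Nat.factorial_le h2).trans (by decide)
  have hmul := D.normalCore.card_mul_index
  rw [hcard] at hmul
  have hbig : 8 ≤ Nat.card D.normalCore := by
    by_contra hcon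
    push Not at hcon
    have : Nat.card D.normalCore * D.normalCore.index ≤ 7 * 5040 := Nat.mul_le_mul (by omega) hidx
    omega
  by_cases hz : K.z ∈ D.normalCore
  · let φ : C →* alternatingGroup (Fin 8) := K.π.codRestrict _ fun g => K.mem_alternating g
    have hφ : Function.Surjective φ := by
      rintro ⟨σ, hσ⟩
      obtain ⟨g, hg⟩ := K.exists_lift hσ
      exact ⟨g, Subtype.ext hg⟩
    have hs : IsSimpleGroup (alternatingGroup (Fin 8)) := alternatingGroup.isSimpleGroup (by simp)
    have hn : (D.normalCore.map φ).Normal := hN.map φ hφ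
    rcases hn.eq_bot_or_eq_top with h | h
    · have h3 : (D.normalCore : Set C) ⊆ {1, K.z} := by
        intro x hx
        have h4 : φ x ∈ D.normalCore.map φ := ⟨x, hx, rfl⟩
        rw [h, mem_bot] at h4
        exact (K.ker x).1 (congrArg Subtype.val h4)
      have h4 := Set.ncard_le_ncard h3 (Set.toFinite _)
      rw [Set.ncard_pair K.z_ne.symm] at h4
      have h5 : (D.normalCore : Set C).ncard = Nat.card D.normalCore := rfl
      omega
    · apply hNne
      rw [eq_top_iff]
      intro x _
      have h4 : φ x ∈ D.normalCore.map φ := h ▸ mem_top _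
      obtain ⟨y, hy, hyx⟩ := h4
      have h5 : K.π x = K.π y := (congrArg Subtype.val hyx).symm
      rcases K.lift_eq h5 with h6 | h6
      · rw [h6]; exact hy
      · rw [h6]; exact D.normalCore.mul_mem hy hz
  · have h1 := Cfsg.Agent.SporRec.LyFiveCov.eq_bot_of_normal K (by simp) hN hz
    rw [h1, Subgroup.card_bot] at hbig
    omega

/-- **McL, `A` of even order.** -/
theorem killE_mcl {T : Type*} [Group T] [Finite T] [IsSimpleGroup T] (hT : Spor.IsoMcL T) : KillE T := by
  intro A Γ h ⟨t₀, ht₀A, ht₀⟩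
  obtain ⟨-, -, hcard, ⟨L⟩⟩ := Cfsg.Agent.TypeM.FactsMcL.facts hT
  have hna : ∃ a b : T, a * b ≠ b * a := by
    by_contra hcon
    push Not at hcon
    have h1 : centralizer ({L.t} : Set T) = ⊤ := by
      rw [eq_top_iff]
      intro x _
      rw [mem_centralizer_singleton_iff]
      exact hcon _ _
    have h2 := Cfsg.Agent.TypeM.FactsAut.card_centralizer L (by norm_num)
    rw [h1, Subgroup.card_top, hcard] at h2
    exact absurd h2 (by decide)
  -- the centralisers of the involutions of `A` lie in `A`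
  have key : ∀ L' : MT 8 T, L'.t ∈ A → centralizer ({L'.t} : Set T) ≤ A := by
    intro L' ht
    have hc := Cfsg.Agent.TypeM.FactsAut.card_centralizer L' (by norm_num)
    have hidx : (centralizer ({L'.t} : Set T)).index = 22275 := by
      have h1 := (centralizer ({L'.t} : Set T)).card_mul_index
      rw [hc, hcard] at h1
      have h2 : (8 : ℕ).factorial = 40320 := rfl
      rw [h2] at h1
      omega
    obtain ⟨-, -, -, -, h5⟩ := IF.E2' h hna ht L'.orderOf_t
    have h6 := (h5 _ le_rfl).1
    rw [hidx] at h6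
    have h7 : A.relIndex (centralizer ({L'.t} : Set T)) ≤ 7 := by
      by_contra hcon
      push Not at hcon
      have := Nat.pow_le_pow_left (Nat.succ_le_of_lt hcon) 5
      norm_num at this
      omega
    have h8 : A.subgroupOf (centralizer ({L'.t} : Set T)) = ⊤ := by
      by_contra hcon
      have := index_ge L'.K hcon
      have h9 : A.relIndex (centralizer ({L'.t} : Set T)) = (A.subgroupOf (centralizer ({L'.t} : Set T))).index := rfl
      omega
    exact Subgroup.subgroupOf_eq_top.1 h8
  obtain ⟨L₁, hL₁⟩ := L.exists_rebase (s := t₀) (by rw [← pow_two, ← ht₀, pow_orderOf_eq_one])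
    (by rintro rfl; rw [orderOf_one] at ht₀; exact absurd ht₀ (by norm_num))
  have h1 : centralizer ({L₁.t} : Set T) ≤ A := key L₁ (hL₁ ▸ ht₀A)
  obtain ⟨u, hu, hu1, hut, hc⟩ := Cfsg.Agent.TypeM.FactsAut.exists_u L₁ (Or.inl rfl)
  have huA : u ∈ A := h1 (L₁.mem_iff.2 hc)
  obtain ⟨L₂, hL₂⟩ := L.exists_rebase hu hu1
  have h2 : centralizer ({L₂.t} : Set T) ≤ A := key L₂ (hL₂ ▸ huA)
  have h3 := Cfsg.Agent.TypeM.FactsAut.sup_eq_top L₁ (Or.inl ⟨rfl, hcard⟩) hu hu1 hut hc
  apply h.ne_top
  rw [eq_top_iff, ← h3]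
  refine sup_le h1 ?_
  rw [← hL₂]
  exact h2

end Cfsg.Agent.H41.IFx
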