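import Cfsg.Agent.H41.IFx.McL
import Cfsg.Agent.H546.IF.OddBase
import Cfsg.Agent.H692.CubeMcL
import Cfsg.Agent.Blocks.ClassScalar

/-!
# S5719: the McLaughlin group, `A` of odd order, and the row (helper41)

An outer involution `φ` fixes an involution `t` and acts on `C(t) = 2.A_8` as an odd permutation `s`, `s² = 1`;
`32 ∣ |C_{S_8}(s)|` gives `16 ∣ |C_T(φ)|`. With the cube bound of helper692 the criterion `killO_cube` applies.
-/

set_option autoImplicit false

namespace Cfsg.Agent.H41.IFx

open Subgroup Equiv Cfsg.Agent.SporRec.TwoAn Cfsg.Agent.TypeM.Two Cfsg.Agent.TypeM.FactsAut Cfsg.Agent.H209.Fxy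
open Cfsg.Agent.H383.Cube Cfsg.Agent.H546.IFO

/-- the centraliser in `S_8` of an odd involution -/
theorem dvd_cent {s : Perm (Fin 8)} (h2 : s * s = 1) (hs : Perm.sign s = -1) :
    32 ∣ Nat.card (centralizer ({s} : Set (Perm (Fin 8)))) := by
  obtain ⟨k, hk⟩ := Perm.two_dvd_card_support (σ := s) (by rw [pow_two, h2])
  have hc := Cfsg.Agent.SporRec.LyType.cycleType_of_involution h2 hk
  have hk4 : k ≤ 4 := by
    have h3 : s.support.card ≤ Fintype.card (Fin 8) := Finset.card_le_univ _
    rw [Fintype.card_fin] at h3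
    omega
  rw [Perm.sign_of_cycleType, hc] at hs
  rw [Perm.nat_card_centralizer, hc]
  interval_cases k
  · exact absurd hs (by decide)
  · decide
  · exact absurd hs (by decide)
  · decide
  · exact absurd hs (by decide)

/-- an involutory automorphism fixes an involution -/
theorem exists_fixed {G : Type*} [Group G] [Finite G] (L : MT 8 G) {φ : MulAut G} (h : φ * φ = 1) :
    ∃ L' : MT 8 G, φ L'.t = L'.t := by
  classical
  have : Fact (Nat.Prime 2) := ⟨Nat.prime_two⟩
  let _ : Fintype {x : G // orderOf x = 2} := Fintype.ofFinite _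
  have hcard : Nat.card {x : G // orderOf x = 2} = (centralizer ({L.t} : Set G)).index := by
    rw [Cfsg.Agent.Blocks.ClassScalar.index_centralizer]
    refine Nat.card_congr (Equiv.subtypeEquivRight fun x => ⟨fun hx => ?_, fun hx => ?_⟩)
    · obtain ⟨h1, h2⟩ := MT.sq_of_orderOf hx
      obtain ⟨g, hg⟩ := L.one x h1 h2
      exact isConj_iff.2 ⟨g, hg⟩
    · obtain ⟨c, rfl⟩ := isConj_iff.1 hx
      exact (MulEquiv.orderOf_eq (MulAut.conj c) L.t).trans L.orderOf_t
  have hodd : ¬ 2 ∣ Fintype.card {x : G // orderOf x = 2} := by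
    rw [← Nat.card_eq_fintype_card, hcard, ← even_iff_two_dvd, Nat.not_even_iff_odd]
    exact odd_index L
  let σ : Perm {x : G // orderOf x = 2} := φ.toEquiv.subtypeEquiv fun x => by
    show orderOf x = 2 ↔ orderOf (φ x) = 2
    rw [MulEquiv.orderOf_eq φ x]
  have hσ : σ ^ 2 ^ 1 = 1 := by
    rw [pow_one, pow_two]
    ext x
    show φ (φ (x : G)) = x
    exact congrArg (fun ψ : MulAut G => ψ (x : G)) h
  obtain ⟨a, ha⟩ := Perm.exists_fixed_point_of_prime hodd hσ
  obtain ⟨h1, h2⟩ := MT.sq_of_orderOf a.2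
  obtain ⟨L', hL'⟩ := L.exists_rebase h1 h2
  refine ⟨L', ?_⟩
  rw [hL']
  exact congrArg Subtype.val ha

/-- **`16 ∣ |C_T(φ)|`** for the outer involutions `φ` -/
theorem sixteen_dvd {G : Type*} [Group G] [Finite G] (L₀ : MT 8 G) (hG : Nat.card G = 898128000) {φ : MulAut G}
    (h2 : φ * φ = 1) (hφ : ∀ g, φ ≠ MulAut.conj g) : 16 ∣ Nat.card (fix φ) := by
  classical
  obtain ⟨L, ht⟩ := exists_fixed L₀ h2
  have hgen : Gen L := gen L (Or.inl ⟨rfl, hG⟩)
  obtain ⟨s, hs⟩ := exists_sigma L (by norm_num) ht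
  have hsgn := sign_eq L (Or.inl rfl) hgen hφ ht hs
  have hsq : ∀ g : G, φ (φ g) = g := fun g => congrArg (fun ψ : MulAut G => ψ g) h2
  have hss := sigma_mul_self L (by norm_num) ht (fun g _ => hsq g) hs
  have h32 := dvd_cent hss hsgn
  -- the subgroup `D` of the elements of `C(t)` with image commuting with `s`
  set C := centralizer ({L.t} : Set G) with hC
  set D : Subgroup C := (centralizer ({s} : Set (Perm (Fin 8)))).comap L.K.π with hD
  have hmap : D.map L.K.π = centralizer ({s} : Set (Perm (Fin 8))) ⊓ alternatingGroup (Fin 8) := by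
    rw [hD, Subgroup.map_comap_eq, L.K.range_eq, inf_comm]
  have hker : L.K.π.ker ≤ D := by
    intro x hx
    rw [hD, mem_comap, MonoidHom.mem_ker.1 hx]
    exact one_mem _
  have hkc : Nat.card L.K.π.ker = 2 := by
    have h1 : ((L.K.π.ker : Subgroup C) : Set C) = {1, L.K.z} := by
      ext x
      exact L.K.ker x
    have h3 : Nat.card L.K.π.ker = ((L.K.π.ker : Subgroup C) : Set C).ncard := rfl
    rw [h3, h1, Set.ncard_pair L.K.z_ne.symm]
  have hDc : 32 ∣ Nat.card D := by
    have h1 : Nat.card D = Nat.card (D.map L.K.π) * 2 := by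
      have h3 := Subgroup.card_mul_index (L.K.π.comp D.subtype).ker
      rw [Subgroup.index_ker] at h3
      have h4 : (L.K.π.comp D.subtype).range = D.map L.K.π := by
        rw [MonoidHom.range_comp, Subgroup.range_subtype]
      have h5 : Nat.card (L.K.π.comp D.subtype).ker = 2 := by
        rw [← hkc]
        refine Nat.card_congr ⟨fun x => ⟨((x : D) : C), x.2⟩, fun x => ⟨⟨x, hker x.2⟩, x.2⟩, fun _ => rfl, fun _ => rfl⟩
      rw [h4, h5] at h3
      rw [← h3, mul_comm]
    rw [h1, hmap]
    have h3 : Nat.card (centralizer ({s} : Set (Perm (Fin 8)))) ∣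
        Nat.card ↥(centralizer ({s} : Set (Perm (Fin 8))) ⊓ alternatingGroup (Fin 8)) * 2 := by
      have h4 := ((alternatingGroup (Fin 8)).subgroupOf (centralizer ({s} : Set (Perm (Fin 8))))).card_mul_index
      have h5 : Nat.card ((alternatingGroup (Fin 8)).subgroupOf (centralizer ({s} : Set (Perm (Fin 8))))) =
          Nat.card ↥(centralizer ({s} : Set (Perm (Fin 8))) ⊓ alternatingGroup (Fin 8)) := by
        rw [inf_comm, ← Subgroup.inf_subgroupOf_right]
        exact Nat.card_congr (Subgroup.subgroupOfEquivOfLe inf_le_right).toEquiv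
      rw [h5] at h4
      rw [← h4]
      apply Nat.mul_dvd_mul_left
      have h6 : (alternatingGroup (Fin 8)).relIndex (centralizer ({s} : Set (Perm (Fin 8)))) ∣
          (alternatingGroup (Fin 8)).index := Subgroup.relIndex_dvd_index_of_normal _ _
      rw [alternatingGroup.index_eq_two] at h6
      exact h6
    exact h32.trans h3
  -- the homomorphism `g ↦ g⁻¹ φ(g)`
  have hval : ∀ g : D, ((g : C))⁻¹ * resAut L.t φ ht g = 1 ∨ ((g : C))⁻¹ * resAut L.t φ ht g = L.K.z := by
    intro g
    apply (L.K.ker _).1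
    rw [map_mul, map_inv, hs]
    have h1 := mem_centralizer_singleton_iff.1 (mem_comap.1 g.2)
    rw [← h1]
    group
  have hcen : ∀ (g : D) (x : C), x * (((g : C))⁻¹ * resAut L.t φ ht g) = ((g : C))⁻¹ * resAut L.t φ ht g * x := by
    intro g x
    rcases hval g with h1 | h1 <;> rw [h1]
    · rw [mul_one, one_mul]
    · exact L.K.z_comm x
  let ψ : D →* C :=
    { toFun := fun g => ((g : C))⁻¹ * resAut L.t φ ht g
      map_one' := by rw [Subgroup.coe_one, map_one, inv_one, mul_one]
      map_mul' := by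
        intro a b
        show ((a * b : D) : C)⁻¹ * resAut L.t φ ht ((a * b : D) : C) = _
        rw [Subgroup.coe_mul, map_mul, mul_inv_rev]
        calc ((b : C))⁻¹ * ((a : C))⁻¹ * (resAut L.t φ ht a * resAut L.t φ ht b)
            = ((b : C))⁻¹ * (((a : C))⁻¹ * resAut L.t φ ht a) * resAut L.t φ ht b := by group
          _ = (((a : C))⁻¹ * resAut L.t φ ht a) * ((b : C))⁻¹ * resAut L.t φ ht b := by rw [hcen a]
          _ = _ := by group }
  have hrange : Nat.card ψ.range ≤ 2 := by
    have h1 : ((ψ.range : Subgroup C) : Set C) ⊆ {1, L.K.z} := by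
      rintro _ ⟨g, rfl⟩
      exact hval g
    have h3 := Set.ncard_le_ncard h1 (Set.toFinite _)
    rw [Set.ncard_pair L.K.z_ne.symm] at h3
    exact h3
  have hmul := ψ.ker.card_mul_index
  rw [Subgroup.index_ker] at hmul
  have h16 : 16 ∣ Nat.card ψ.ker := by
    have h0 : 0 < Nat.card ψ.range := Nat.card_pos
    obtain ⟨m, hm⟩ := hDc
    rw [hm] at hmul
    have h12 : Nat.card ψ.range = 1 ∨ Nat.card ψ.range = 2 := by omega
    rcases h12 with h1 | h1
    · rw [h1] at hmul
      exact ⟨2 * m, by omega⟩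
    · rw [h1] at hmul
      exact ⟨m, by omega⟩
  refine h16.trans ?_
  let F : ψ.ker →* fix φ :=
    { toFun := fun g => ⟨(((g : D) : C) : G), by
        have h1 : (((g : D) : C))⁻¹ * resAut L.t φ ht (g : D) = 1 := g.2
        rw [inv_mul_eq_one] at h1
        exact (congrArg Subtype.val h1).symm⟩
      map_one' := rfl
      map_mul' := fun _ _ => rfl }
  have hF : Function.Injective F := by
    intro a b hab
    apply Subtype.ext
    apply Subtype.ext
    apply Subtype.ext
    exact congrArg (fun x : fix φ => (x : G)) hab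
  have h1 := Subgroup.card_subgroup_dvd_card F.range
  rwa [← Nat.card_congr (MonoidHom.ofInjective hF).toEquiv] at h1

/-- **McL, `A` of odd order.** -/
theorem killO_mcl {T : Type*} [Group T] [Finite T] [IsSimpleGroup T] (hT : Spor.IsoMcL T) : KillO T := by
  obtain ⟨-, -, hcard, ⟨L⟩⟩ := Cfsg.Agent.TypeM.FactsMcL.facts hT
  have hna : ∃ a b : T, a * b ≠ b * a := by
    by_contra hcon
    push Not at hcon
    have h1 : centralizer ({L.t} : Set T) = ⊤ := by
      rw [eq_top_iff]
      intro x _
      rw [mem_centralizer_singleton_iff]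
      exact hcon _ _
    have h2 := card_centralizer L (by norm_num)
    rw [h1, Subgroup.card_top, hcard] at h2
    exact absurd h2 (by decide)
  refine killO_cube hna (Cfsg.Agent.H692.CubeMcL.cube_McL hT) (k := 4) ?_ ?_
  · intro σ h2 hout
    refine sixteen_dvd L hcard ?_ hout
    rw [← pow_two, ← h2, pow_orderOf_eq_one]
  · rw [hcard]
    norm_num

/-- **The row of McL.** -/
theorem rowMcL : Row fun T => Spor.IsoMcL T := by
  refine Row.of_kill ?_
  intro T _ _ _ _ hT
  exact Kill.of (killE_mcl hT) (killO_mcl hT)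

end Cfsg.Agent.H41.IFx
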